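import Cfsg.Agent.Janko2.Simple
import Cfsg.Agent.Janko2.HundredData

/-!
The action of the Hall–Janko group on one hundred sets of 63 lines.
-/

set_option autoImplicit false

namespace Cfsg.Agent.Janko2

/-- membership of a line in a set -/
def inSet (j x : ℕ) : Bool := Nat.beq ((maskTab.getD j 0 >>> x) % 2) 1

/-- the image of a set under a tabled generator -/
def happ (k j : ℕ) : Fin 100 :=
  ⟨(hundredPerm.getD k 0 >>> (7 * j)) % 128 % 100, Nat.mod_lt _ (by norm_num)⟩

/-- a tabled element of the stabiliser on the lines -/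
def tapp (k x : ℕ) : ℕ := (abTab.getD k 0 >>> (9 * x)) % 512

/-- a tabled element of the stabiliser on the sets -/
def sapp (k : ℕ) (j : Fin 100) : Fin 100 :=
  ⟨(abHundred.getD k 0 >>> (7 * j.val)) % 128 % 100, Nat.mod_lt _ (by norm_num)⟩

theorem set_separation : ∀ a b : Fin 100, a ≠ b →
    ((List.range 315).any fun x => inSet a.val x != inSet b.val x) = true := by
  decide +kernel

theorem happ_involutive : ∀ k : Fin 4, ∀ j : Fin 100, happ k.val (happ k.val j.val).val = j := by
  decide +kernel

theorem gen_sets : ∀ k : Fin 4, ∀ j : Fin 100, ((List.range 315).all fun x =>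
    inSet j.val x == inSet (happ k.val j.val).val (papp k.val x)) = true := by
  decide +kernel

/-- the permutation of the sets induced by a permutation of the lines -/
def SetInd (g : Equiv.Perm (Fin 315)) (σ : Equiv.Perm (Fin 100)) : Prop :=
  ∀ (j : Fin 100) (x : Fin 315), inSet j.val x.val = inSet (σ j).val (g x).val

theorem setInd_one : SetInd 1 1 := fun _ _ => rfl

theorem SetInd.mul {g h : Equiv.Perm (Fin 315)} {σ τ : Equiv.Perm (Fin 100)} (hg : SetInd g σ)
    (hh : SetInd h τ) : SetInd (g * h) (σ * τ) := fun j x => (hh j x).trans (hg _ _)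

theorem setInd_gen (k : Fin 4) :
    SetInd (rho (genG k))
      (Function.Involutive.toPerm (fun j : Fin 100 => happ k.val j.val) (happ_involutive k)) := by
  intro j x
  have := List.all_eq_true.1 (gen_sets k j) x.val (List.mem_range.2 x.2)
  rw [beq_iff_eq] at this
  rw [this, genG_table]
  rfl

theorem exists_setInd {g : Equiv.Perm (Fin 315)} (hg : g ∈ K) : ∃ σ, SetInd g σ := by
  rw [K, ← Subgroup.mem_toSubmonoid, Subgroup.closure_toSubmonoid_of_finite] at hg
  induction hg using Submonoid.closure_induction_left with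
  | one => exact ⟨1, setInd_one⟩
  | mul_left a ha z _ ih =>
    obtain ⟨k, rfl⟩ := ha
    obtain ⟨σ, hσ⟩ := ih
    exact ⟨_, (setInd_gen k).mul hσ⟩

theorem set_image_unique {g : Equiv.Perm (Fin 315)} {a b : Fin 100}
    (h : ∀ x : Fin 315, inSet a.val (g x).val = inSet b.val (g x).val) : a = b := by
  by_contra hne
  obtain ⟨y, hy, hne'⟩ := List.any_eq_true.1 (set_separation a b hne)
  have := h (g⁻¹ ⟨y, List.mem_range.1 hy⟩)
  rw [show g (g⁻¹ ⟨y, List.mem_range.1 hy⟩) = ⟨y, List.mem_range.1 hy⟩ from g.apply_symm_apply _] at this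
  simp [this] at hne'

theorem setInd_unique {g : Equiv.Perm (Fin 315)} {σ τ : Equiv.Perm (Fin 100)} (h : SetInd g σ)
    (h' : SetInd g τ) : σ = τ :=
  Equiv.ext fun j => set_image_unique fun x => (h j x).symm.trans (h' j x)

/-- the action on the hundred sets -/
noncomputable def hund : ↥K →* Equiv.Perm (Fin 100) :=
  MonoidHom.mk' (fun g => (exists_setInd g.2).choose) fun g h =>
    setInd_unique (exists_setInd (g * h).2).choose_spec
      ((exists_setInd g.2).choose_spec.mul (exists_setInd h.2).choose_spec)

theorem hund_spec (g : ↥K) : SetInd g.1 (hund g) := (exists_setInd g.2).choose_spec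

theorem hund_eq (g : ↥K) {j a : Fin 100}
    (h : ∀ x : Fin 315, inSet j.val x.val = inSet a.val (g.1 x).val) : hund g j = a :=
  set_image_unique fun x => ((hund_spec g) j x).symm.trans (h x)

theorem hund_gen (k : Fin 4) (j : Fin 100) :
    hund ⟨rho (genG k), Subgroup.subset_closure ⟨k, rfl⟩⟩ j = happ k.val j.val :=
  hund_eq _ fun x => setInd_gen k j x

theorem words_table : hundredWords.length = 100 ∧
    (hundredWords.all fun w => w.all fun k => Nat.blt k 4) = true ∧
    (∀ j : Fin 100, ((hundredWords.getD j.val []).foldr (fun k i => happ k i.val) (0 : Fin 100)) = j) := by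
  decide +kernel

theorem el_gen (k : Fin 4) : el k.val = rho (genG k) :=
  Equiv.ext fun x => Fin.ext (by rw [el_apply (by omega), genG_table])

/-- a word in the generators as an element -/
noncomputable def kW (w : List ℕ) : ↥K := ⟨elW w, elW_mem w⟩

theorem hund_word {w : List ℕ} (h : ∀ k ∈ w, k < 4) (j : Fin 100) :
    hund (kW w) j = w.foldr (fun k i => happ k i.val) j := by
  induction w with
  | nil =>
    rw [show kW [] = 1 from rfl, map_one]
    rfl
  | cons k w ih =>
    simp only [List.forall_mem_cons] at h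
    have e : kW (k :: w) = ⟨rho (genG ⟨k, h.1⟩), Subgroup.subset_closure ⟨_, rfl⟩⟩ * kW w := by
      apply Subtype.ext
      show elW (k :: w) = rho (genG ⟨k, h.1⟩) * elW w
      rw [← el_gen, show elW (k :: w) = el k * elW w from rfl]
    rw [e, map_mul, Equiv.Perm.mul_apply, ih h.2, hund_gen]
    rfl

/-- the representative moving the first set to a given one -/
noncomputable def setRep (j : Fin 100) : ↥K := kW (hundredWords.getD j.val [])

theorem hundred_word_lt (j : Fin 100) : ∀ k ∈ hundredWords.getD j.val [], k < 4 := by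
  intro k hk
  have hj : j.val < hundredWords.length := by rw [words_table.1]; exact j.2
  rw [List.getD_eq_getElem _ _ hj] at hk
  exact Nat.blt_eq.mp (List.all_eq_true.1 (List.all_eq_true.1 words_table.2.1 _ (List.getElem_mem _)) k hk)

theorem setRep_zero (j : Fin 100) : hund (setRep j) 0 = j := by
  rw [setRep, hund_word (hundred_word_lt j)]
  exact words_table.2.2 j

/-- the stabiliser of the first set -/
noncomputable def Hs : Subgroup ↥K := (MulAction.stabilizer (Equiv.Perm (Fin 100)) (0 : Fin 100)).comap hund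

theorem mem_Hs {g : ↥K} : g ∈ Hs ↔ hund g 0 = 0 := Iff.rfl

/-- the coset map of the stabiliser -/
noncomputable def cosetPt : ↥K ⧸ Hs → Fin 100 :=
  Quotient.lift (fun g => hund g 0) fun a b hab => by
    have h : hund (a⁻¹ * b) 0 = 0 := QuotientGroup.leftRel_apply.1 hab
    rw [map_mul, map_inv, Equiv.Perm.mul_apply, Equiv.Perm.inv_eq_iff_eq] at h
    exact h.symm

theorem cosetPt_mk (g : ↥K) : cosetPt (QuotientGroup.mk g) = hund g 0 := rfl

theorem cosetPt_bijective : Function.Bijective cosetPt := by
  refine ⟨fun a b => ?_, fun j => ⟨QuotientGroup.mk (setRep j), setRep_zero j⟩⟩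
  induction a using QuotientGroup.induction_on with
  | _ a =>
  induction b using QuotientGroup.induction_on with
  | _ b =>
    intro h
    rw [cosetPt_mk, cosetPt_mk] at h
    refine QuotientGroup.eq.2 ?_
    rw [mem_Hs, map_mul, map_inv, Equiv.Perm.mul_apply, ← h]
    exact (hund a).symm_apply_apply 0

theorem index_Hs : Hs.index = 100 := by
  rw [Subgroup.index, Nat.card_eq_of_bijective cosetPt cosetPt_bijective, Nat.card_fin]

theorem card_Hs : Nat.card ↥Hs = 6048 := by
  have h := Subgroup.card_mul_index Hs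
  rw [index_Hs, card_K] at h
  omega

theorem ab_table : abWords.length = 2 ∧ (abWords.all fun w => w.all fun k => Nat.blt k 32) = true ∧
    (∀ k : Fin 2, ((List.range 315).all fun x => Nat.beq (applyW (abWords.getD k.val []) x) (tapp k.val x)) =
      true) ∧
    (∀ k : Fin 2, ∀ j : Fin 100, ((List.range 315).all fun x =>
      inSet j.val x == inSet (sapp k.val j).val (tapp k.val x)) = true) ∧
    (∀ k : Fin 2, sapp k.val 0 = 0) := by
  decide +kernel

/-- the two elements of the stabiliser -/
noncomputable def abEl (k : Fin 2) : ↥K := kW (abWords.getD k.val [])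

theorem abEl_apply (k : Fin 2) (x : Fin 315) : ((abEl k).1 x).val = tapp k.val x.val := by
  show (elW (abWords.getD k.val []) x).val = _
  have hlt : ∀ i ∈ abWords.getD k.val [], i < 32 := by
    intro i hi
    have hk : k.val < abWords.length := by rw [ab_table.1]; exact k.2
    rw [List.getD_eq_getElem _ _ hk] at hi
    exact Nat.blt_eq.mp (List.all_eq_true.1 (List.all_eq_true.1 ab_table.2.1 _ (List.getElem_mem _)) i hi)
  rw [elW_apply hlt]
  exact Nat.eq_of_beq_eq_true (List.all_eq_true.1 (ab_table.2.2.1 k) x.val (List.mem_range.2 x.2))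

theorem hund_ab (k : Fin 2) (j : Fin 100) : hund (abEl k) j = sapp k.val j := by
  refine hund_eq _ fun x => ?_
  rw [abEl_apply]
  exact beq_iff_eq.1 (List.all_eq_true.1 (ab_table.2.2.2.1 k j) x.val (List.mem_range.2 x.2))

/-- the subgroup generated by the two elements -/
noncomputable def Lab : Subgroup ↥K := Subgroup.closure (Set.range abEl)

/-- a word in the two elements -/
noncomputable def abW (w : List (Fin 2)) : ↥K := (w.map abEl).prod

theorem abW_mem (w : List (Fin 2)) : abW w ∈ Lab :=
  Subgroup.list_prod_mem _ fun g hg => by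
    obtain ⟨k, -, rfl⟩ := List.mem_map.1 hg
    exact Subgroup.subset_closure ⟨k, rfl⟩

/-- read a word in the two elements -/
def ab2 (w : List ℕ) : List (Fin 2) := w.map fun k => ⟨k % 2, Nat.mod_lt _ (by norm_num)⟩

theorem abW_apply (w : List (Fin 2)) (x : Fin 315) :
    ((abW w).1 x).val = w.foldr (fun k p => tapp k.val p) x.val := by
  induction w with
  | nil => rfl
  | cons k w ih =>
    show ((abEl k).1 ((abW w).1 x)).val = _
    rw [abEl_apply, ih]
    rfl

theorem schreier_table : ∀ k : Fin 4, ∀ j : Fin 100, sixPts.all (fun p =>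
    Nat.beq (papp k.val (applyW (hundredWords.getD j.val []) p))
      (applyW (hundredWords.getD (happ k.val j.val).val [])
        ((ab2 ((schreierTab.getD k.val []).getD j.val [])).foldr (fun i q => tapp i.val q) p))) = true := by
  decide +kernel

theorem setRep_apply (j : Fin 100) (x : Fin 315) :
    ((setRep j).1 x).val = applyW (hundredWords.getD j.val []) x.val :=
  elW_apply (fun k hk => Nat.lt_of_lt_of_le (hundred_word_lt j k hk) (by norm_num)) x

theorem gen_setRep (k : Fin 4) (j : Fin 100) : ∃ h ∈ Lab,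
    (⟨rho (genG k), Subgroup.subset_closure ⟨k, rfl⟩⟩ : ↥K) * setRep j =
      setRep (happ k.val j.val) * h := by
  refine ⟨_, abW_mem (ab2 ((schreierTab.getD k.val []).getD j.val [])), Subtype.ext ?_⟩
  refine eq_of_six (mul_mem (Subgroup.subset_closure ⟨k, rfl⟩) (setRep j).2)
    (mul_mem (setRep _).2 (abW _).2) fun x hx => Fin.ext ?_
  show (rho (genG k) ((setRep j).1 x)).val = ((setRep _).1 ((abW _).1 x)).val
  rw [genG_table, setRep_apply, setRep_apply, abW_apply]
  exact Nat.eq_of_beq_eq_true (List.all_eq_true.1 (schreier_table k j) x.val hx)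

theorem exists_factor (g : ↥K) : ∃ j, ∃ h ∈ Lab, g = setRep j * h := by
  obtain ⟨g, hg⟩ := g
  suffices H : ∀ hg : g ∈ K, ∃ j, ∃ h ∈ Lab, (⟨g, hg⟩ : ↥K) = setRep j * h from H hg
  have hg' := hg
  rw [K, ← Subgroup.mem_toSubmonoid, Subgroup.closure_toSubmonoid_of_finite] at hg'
  induction hg' using Submonoid.closure_induction_left with
  | one =>
    intro _
    refine ⟨0, 1, one_mem _, ?_⟩
    have h0 : hundredWords.getD 0 [] = [] := by decide +kernel
    rw [mul_one, setRep, show ((0 : Fin 100) : ℕ) = 0 from rfl, h0]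
    rfl
  | mul_left a ha z hz ih =>
    intro hm
    obtain ⟨k, rfl⟩ := ha
    have hzK : z ∈ K := by
      have := hz
      rw [← Subgroup.closure_toSubmonoid_of_finite] at this
      exact this
    obtain ⟨j, h, hh, e⟩ := ih hzK hzK
    obtain ⟨h', hh', e'⟩ := gen_setRep k j
    refine ⟨happ k.val j.val, h' * h, mul_mem hh' hh, ?_⟩
    rw [show (⟨rho (genG k) * z, hm⟩ : ↥K) =
      ⟨rho (genG k), Subgroup.subset_closure ⟨k, rfl⟩⟩ * ⟨z, hzK⟩ from rfl, e, ← mul_assoc, e', mul_assoc]

theorem Hs_eq : Hs = Lab := by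
  have hle : Lab ≤ Hs := by
    refine (Subgroup.closure_le _).2 ?_
    rintro _ ⟨k, rfl⟩
    exact (hund_ab k 0).trans (ab_table.2.2.2.2 k)
  refine le_antisymm (fun g hg => ?_) hle
  obtain ⟨j, h, hh, rfl⟩ := exists_factor g
  have h0 : hund (setRep j * h) 0 = 0 := hg
  have h1 : hund h 0 = 0 := hle hh
  rw [map_mul, Equiv.Perm.mul_apply, h1, setRep_zero] at h0
  subst h0
  refine mul_mem ?_ hh
  have e : setRep 0 = 1 := by
    have h0 : hundredWords.getD 0 [] = [] := by decide +kernel
    rw [setRep, show ((0 : Fin 100) : ℕ) = 0 from rfl, h0]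
    rfl
  rw [e]
  exact one_mem _

/-- the number of lines common to the first set and another -/
def interN (j : ℕ) : ℕ := ((List.range 315).filter fun x => inSet 0 x && inSet j x).length

theorem orbit_table :
    (∀ r : Fin 2, ∀ j : Fin 100, interN j.val = [21, 7].getD r.val 0 →
      (([orb36, orb63].getD r.val []).any fun w =>
        decide ((ab2 w).foldr (fun k i => sapp k.val i) (Fin.ofNat 100 (hundredRoots.getD r.val 0)) = j)) =
        true) ∧
    (∀ r : Fin 2, interN (Fin.ofNat 100 (hundredRoots.getD r.val 0)).val = [21, 7].getD r.val 0) ∧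
    (∀ r : Fin 2, ((List.finRange 100).filter fun j : Fin 100 =>
      Nat.beq (interN j.val) ([21, 7].getD r.val 0)).length = [36, 63].getD r.val 0) := by
  decide +kernel

theorem hund_abW (w : List (Fin 2)) (j : Fin 100) :
    hund (abW w) j = w.foldr (fun k i => sapp k.val i) j := by
  induction w with
  | nil =>
    rw [show abW [] = 1 from rfl, map_one]
    rfl
  | cons k w ih =>
    rw [show abW (k :: w) = abEl k * abW w from rfl, map_mul, Equiv.Perm.mul_apply, ih, hund_ab]
    rfl

theorem interN_eq_card (j : Fin 100) : interN j.val =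
    ((Finset.univ : Finset (Fin 315)).filter fun x => (inSet 0 x.val && inSet j.val x.val) = true).card := by
  rw [interN, ← List.toFinset_card_of_nodup ((List.nodup_range).filter _)]
  symm
  refine Finset.card_bij (fun x _ => x.val) (fun x hx => ?_) (fun x _ y _ h => Fin.ext h) (fun b hb => ?_)
  · simp only [Finset.mem_filter, Finset.mem_univ, true_and] at hx
    exact List.mem_toFinset.2 (List.mem_filter.2 ⟨List.mem_range.2 x.2, hx⟩)
  · obtain ⟨hb1, hb2⟩ := List.mem_filter.1 (List.mem_toFinset.1 hb)
    exact ⟨⟨b, List.mem_range.1 hb1⟩, Finset.mem_filter.2 ⟨Finset.mem_univ _, hb2⟩, rfl⟩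

theorem interN_invariant {g : ↥K} (hg : g ∈ Hs) (j : Fin 100) :
    interN (hund g j).val = interN j.val := by
  rw [interN_eq_card, interN_eq_card]
  refine (Finset.card_equiv g.1 fun x => ?_).symm
  have h0 := hund_spec g 0 x
  rw [mem_Hs.1 hg] at h0
  simp only [Finset.mem_filter, Finset.mem_univ, true_and]
  rw [hund_spec g j x, show inSet 0 x.val = inSet 0 (g.1 x).val from h0]

theorem orbit_sizes : ∀ r : Fin 2, ∃ j : Fin 100,
    Set.ncard {i | ∃ g ∈ Hs, hund g j = i} = [36, 63].getD r.val 0 := by
  intro r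
  refine ⟨Fin.ofNat 100 (hundredRoots.getD r.val 0), ?_⟩
  obtain ⟨h1, h2, h3⟩ := orbit_table
  have e : {i | ∃ g ∈ Hs, hund g (Fin.ofNat 100 (hundredRoots.getD r.val 0)) = i} =
      ↑((List.finRange 100).filter fun j : Fin 100 =>
        Nat.beq (interN j.val) ([21, 7].getD r.val 0)).toFinset := by
    ext i
    simp only [Set.mem_ofPred_eq, List.coe_toFinset, List.mem_filter, List.mem_finRange, true_and,
      Nat.beq_eq]
    constructor
    · rintro ⟨g, hg, rfl⟩
      rw [interN_invariant hg]
      exact h2 r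
    · intro hi
      obtain ⟨w, -, hw⟩ := List.any_eq_true.1 (h1 r i hi)
      rw [decide_eq_true_eq] at hw
      exact ⟨abW (ab2 w), Hs_eq ▸ abW_mem _, (hund_abW _ _).trans hw⟩
  rw [e, Set.ncard_coe_finset, List.toFinset_card_of_nodup ((List.nodup_finRange 100).filter _), h3]

end Cfsg.Agent.Janko2
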