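import Cfsg.Agent.Janko2.Stabiliser
import Cfsg.Agent.LargeExtra.Pair

/-!
Centralisers of reflections in the Hall–Janko group.
-/

set_option autoImplicit false

namespace Cfsg.Agent.Janko2

open Cfsg.Spor Quaternion IQ

theorem tp_injective_zero {j : Fin 315} (h : tp 0 = tp j) : j = 0 := by
  have hsq : ∀ i, (⟨reflP i, reflP_mem_GU i⟩ : ↥GU) * ⟨reflP i, reflP_mem_GU i⟩ = 1 := fun i =>
    Subtype.ext (Equiv.ext fun v => Subtype.ext (qrefl_invol v.2 i))
  have hG : rho ((⟨reflP 0, reflP_mem_GU 0⟩ : ↥GU) * ⟨reflP j, reflP_mem_GU j⟩) = 1 := by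
    rw [map_mul]
    show tp 0 * tp j = 1
    rw [h, tp_mul_self]
  rcases rigidity _ (fun i _ => by rw [← rho_apply, hG]; rfl) with h1 | h1
  · refine reflP_injective ?_
    have h2 : reflP 0 * reflP j = 1 := h1
    have h3 : reflP 0 * reflP 0 = 1 := congrArg Subtype.val (hsq 0)
    exact (mul_left_cancel (h3.trans h2.symm)).symm
  · exfalso
    have h2 : reflP 0 * reflP j = negP := h1
    have h3 : reflP j = reflP 0 * negP := by
      rw [← h2, ← mul_assoc, show reflP 0 * reflP 0 = 1 from congrArg Subtype.val (hsq 0), one_mul]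
    obtain ⟨e0, e1, e2, -⟩ := axis_reps
    have key : ∀ k : Fin 315, rv k 0 = 0 → ∃ q, ∀ t, 2 * rv k t = q * rv j t := by
      intro k hk
      have h4 := congrArg (fun f : Equiv.Perm ↥icoLeech => (f (rL k)).1) h3
      simp only [Equiv.Perm.mul_apply, reflP_apply] at h4
      obtain ⟨q, -, eq⟩ := pair_even (rv_mem k) j
      rw [show (rL k).1 = rv k from rfl, qrefl_eq eq] at h4
      have h5 : qip (negP (rL k)).1 (rv 0) = 2 * 0 := by
        simp [qip, Fin.sum_univ_three, negP_apply, rL, show rv 0 = vec (rep 0) from rfl, e0, vec,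
          val_two, val_zero, hk]
      rw [qrefl_eq h5] at h4
      refine ⟨q, fun t => ?_⟩
      have h6 := congrFun h4 t
      simp only [Pi.sub_apply, negP_apply, Pi.neg_apply, rL, zero_mul, sub_zero] at h6
      rw [two_mul, ← sub_eq_zero]
      linear_combination (norm := abel) h6
    obtain ⟨q, hq⟩ := key 305 (by simp [rv, e1, vec, val_zero])
    obtain ⟨p, hp⟩ := key 314 (by simp [rv, e2, vec, val_zero])
    have a1 := hq 1
    have b1 := hp 1
    have b2 := hp 2
    simp [rv, e1, e2, vec, val_two, val_zero] at a1 b1 b2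
    rcases b1 with hp0 | hj
    · rw [hp0, zero_mul] at b2
      exact two_ne (by simpa using b2)
    · rw [hj, mul_zero] at a1
      exact two_ne (by simpa using a1)

theorem tp_injective : Function.Injective tp := by
  intro i j h
  obtain ⟨g, hg, rfl⟩ := K_transitive i
  have e : tp 0 = tp (g⁻¹ j) := by
    rw [← tp_conj (inv_mem hg) j, ← h, tp_conj (inv_mem hg) (g 0)]
    exact congrArg tp (g.symm_apply_apply 0).symm
  have := tp_injective_zero e.symm.symm
  rw [← this]
  exact g.apply_symm_apply j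

theorem j2Equiv_refl (i : Fin 315) (hm : reflP i ∈ twoJ2) :
    (j2Equiv (QuotientGroup.mk ⟨reflP i, hm⟩)).1 = tp i := rfl

theorem centralizer_structure {f : Equiv.Perm ↥icoLeech} (hf : IsIcoReflection f) (hfm : f ∈ twoJ2) :
    ∃ (Q : Subgroup ↥(Subgroup.centralizer {(QuotientGroup.mk ⟨f, hfm⟩ : J2)})) (_ : Q.Normal),
      Nat.card Q = 32 ∧ Cfsg.IsExtraspecial 2 Q ∧
      Nonempty (↥(Subgroup.centralizer {(QuotientGroup.mk ⟨f, hfm⟩ : J2)}) ⧸ Q ≃*
        alternatingGroup (Fin 5)) := by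
  obtain ⟨i, rfl⟩ := (isIcoReflection_iff f).1 hf
  obtain ⟨A, hA, hAi⟩ := K_transitive i
  set φ : J2 ≃* ↥K := j2Equiv.trans (MulAut.conj (⟨A, hA⟩ : ↥K)⁻¹) with hφ
  have hφf : (φ (QuotientGroup.mk ⟨reflP i, hfm⟩)).1 = tp 0 := by
    show A⁻¹ * (j2Equiv _).1 * A⁻¹⁻¹ = tp 0
    rw [j2Equiv_refl, tp_conj (inv_mem hA), ← hAi]
    exact congrArg tp (A.symm_apply_apply 0)
  have hiff : ∀ c : J2, c ∈ Subgroup.centralizer {(QuotientGroup.mk ⟨reflP i, hfm⟩ : J2)} ↔
      (φ c).1 ∈ levelGrp 1 := by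
    intro c
    rw [Subgroup.mem_centralizer_singleton_iff, ← φ.injective.eq_iff, map_mul, map_mul, Subtype.ext_iff,
      Subgroup.coe_mul, Subgroup.coe_mul, hφf]
    constructor
    · intro h
      refine mem_level_one (φ c).2 (tp_injective ?_)
      rw [← tp_conj (φ c).2, h, mul_inv_cancel_right]
    · intro h
      have := tp_conj (φ c).2 0
      rw [level_one_fix h] at this
      conv_rhs => rw [← this, inv_mul_cancel_right]
  set C := Subgroup.centralizer {(QuotientGroup.mk ⟨reflP i, hfm⟩ : J2)}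
  let e : ↥C ≃* ↥(levelGrp 1) :=
    { toFun := fun c => ⟨(φ c.1).1, (hiff c.1).1 c.2⟩
      invFun := fun g => ⟨φ.symm ⟨g.1, levelGrp_le 1 g.2⟩, (hiff _).2 (by simpa using g.2)⟩
      left_inv := fun c => Subtype.ext (φ.symm_apply_apply c.1)
      right_inv := fun g => Subtype.ext (by show (φ (φ.symm _)).1 = g.1; rw [φ.apply_symm_apply])
      map_mul' := fun a b => Subtype.ext (by simp) }
  let ψ : ↥C →* Equiv.Perm (Fin 5) := five.comp e.toMonoidHom
  let k : ↥ψ.ker ≃* ↥five.ker :=
    { toFun := fun c => ⟨e c.1, c.2⟩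
      invFun := fun g => ⟨e.symm g.1, by
        show five (e (e.symm g.1)) = 1
        rw [e.apply_symm_apply]; exact g.2⟩
      left_inv := fun c => Subtype.ext (e.symm_apply_apply c.1)
      right_inv := fun g => Subtype.ext (e.apply_symm_apply g.1)
      map_mul' := fun a b => Subtype.ext (map_mul e a.1 b.1) }
  refine ⟨ψ.ker, inferInstance, (Nat.card_congr k.toEquiv).trans card_five_ker, ?_, ?_⟩
  · have : Finite ↥five.ker := Nat.finite_of_card_ne_zero (by rw [card_five_ker]; norm_num)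
    exact LargeExtra.isExtraspecial_map_equiv extraspecial_five_ker k.symm
  · have hr : ψ.range = alternatingGroup (Fin 5) := by
      rw [← five_range, MonoidHom.range_comp, MonoidHom.range_eq_map five]
      congr 1
      exact MonoidHom.range_eq_top.2 e.surjective
    exact ⟨(QuotientGroup.quotientKerEquivRange ψ).trans (MulEquiv.subgroupCongr hr)⟩

end Cfsg.Agent.Janko2
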