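import Cfsg.Agent.Janko2.Centralizer
import Cfsg.Agent.FusionSimple.ExtraFiveEquiv

/-! The 2-fusion system of the Hall–Janko group. -/

set_option autoImplicit false

open scoped commutatorElement

namespace Cfsg.Agent.Janko2

open Cfsg.Spor Cfsg.Agent.FusionSimple

theorem alt_five_center : ∀ a : Equiv.Perm (Fin 5),
    (∀ b : Equiv.Perm (Fin 5), Equiv.Perm.sign b = 1 → a * b = b * a) → a = 1 := by
  decide +kernel

theorem fus_table : agree ([0] ++ kWord 13) (kWord 18 ++ [0]) = true ∧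
    agree (kWord 18) (kWord 13) = false ∧ (sL 1).contains 9 = true ∧
    agree ([9] ++ kWord 1) (kWord 1 ++ [9]) = false ∧
    agree ([9] ++ kWord 1) (kWord 1 ++ kWord 13 ++ [9]) = false := by
  decide +kernel

/-- the central involution, inside `K` -/
noncomputable def tK : ↥K := ⟨(kEl 13).1.1, levelGrp_le 1 (kEl 13).1.2⟩

/-- the extraspecial subgroup, inside `K` -/
noncomputable def QK : Subgroup ↥K := (five.ker.map (levelGrp 1).subtype).subgroupOf K

theorem mem_QK {x : ↥K} : x ∈ QK ↔ ∃ i : Fin 32, x.1 = (kEl i).1.1 := by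
  rw [QK, Subgroup.mem_subgroupOf, Subgroup.mem_map]
  constructor
  · rintro ⟨y, hy, e⟩
    obtain ⟨i, hi⟩ := kEl_bijective.2 ⟨y, hy⟩
    exact ⟨i, by rw [hi]; exact e.symm⟩
  · rintro ⟨i, e⟩
    exact ⟨(kEl i).1, (kEl i).2, e.symm⟩

theorem kEl_thirteen : (kEl 13).1.1 = tp 0 := by
  have h0 : tp 0 ∈ levelGrp 1 := mem_level_one (tp_mem 0) (by
    refine tp_injective ?_
    rw [← tp_conj (tp_mem 0), mul_inv_cancel_right])
  have hcen : ∀ g : ↥(levelGrp 1), g * ⟨tp 0, h0⟩ = ⟨tp 0, h0⟩ * g := fun g => Subtype.ext (by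
    have := tp_conj (levelGrp_le 1 g.2) 0
    rw [level_one_fix g.2] at this
    exact mul_inv_eq_iff_eq_mul.1 this)
  have hker : (⟨tp 0, h0⟩ : ↥(levelGrp 1)) ∈ five.ker := alt_five_center _ fun b hb => by
    obtain ⟨g, rfl⟩ : b ∈ five.range := five_range.symm ▸ Equiv.Perm.mem_alternatingGroup.2 hb
    rw [← map_mul, ← map_mul, hcen g]
  have hz : (⟨⟨tp 0, h0⟩, hker⟩ : ↥five.ker) ∈ Subgroup.center ↥five.ker :=
    Subgroup.mem_center_iff.2 fun g => Subtype.ext (hcen g.1)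
  rw [← SetLike.mem_coe, center_five_ker] at hz
  rcases hz with h | h
  · exfalso
    have h1 : tp 0 = 1 := congrArg (fun g : ↥five.ker => g.1.1) h
    obtain ⟨g, hg, he⟩ := K_transitive 1
    have h2 : tp 1 = 1 := by rw [← he, ← tp_conj hg, h1, mul_one, mul_inv_cancel]
    exact absurd (tp_injective (h1.trans h2.symm)) (by decide)
  · exact (congrArg (fun g : ↥five.ker => g.1.1) h).symm

theorem mem_cent_tK {c : ↥K} : c ∈ Subgroup.centralizer {tK} ↔ c.1 ∈ levelGrp 1 := by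
  rw [Subgroup.mem_centralizer_singleton_iff, Subtype.ext_iff]
  show c.1 * (kEl 13).1.1 = (kEl 13).1.1 * c.1 ↔ _
  rw [kEl_thirteen, ← mul_inv_eq_iff_eq_mul, tp_conj c.2]
  exact ⟨fun h => mem_level_one c.2 (tp_injective h), fun h => by rw [level_one_fix h]⟩

theorem extraFive : ExtraFive tK QK := by
  have hfin : Finite ↥five.ker := Nat.finite_of_card_ne_zero (by rw [card_five_ker]; norm_num)
  have hE := extraspecial_five_ker
  obtain ⟨t1, t2, t3, t4, t5⟩ := fus_table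
  have hcases : ∀ z : ↥five.ker, z ∈ Subgroup.center ↥five.ker → z = 1 ∨ z = kEl 13 := fun z hz => by
    rw [← SetLike.mem_coe, center_five_ker] at hz
    exact hz
  refine ⟨mem_QK.2 ⟨13, rfl⟩, fun h => ?_, ?_, fun x hx => ?_, fun q hq hqc => ?_,
    fun p hp q hq => ?_, ?_, ?_, ?_⟩
  · have h1 : (kEl 13).1.1 = 1 := congrArg Subtype.val h
    rw [kEl_val, ← elW_nil, ← agree_iff (kWord_lt 13) (by simp),
      ker_center_table.2.2.2.2.2] at h1
    exact Bool.noConfusion h1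
  · rw [QK, Nat.card_congr (Subgroup.subgroupOfEquivOfLe ?_).toEquiv,
      Subgroup.card_map_of_injective (levelGrp 1).subtype_injective, card_five_ker]
    rintro _ ⟨y, -, rfl⟩
    exact levelGrp_le 1 y.2
  · obtain ⟨i, e⟩ := mem_QK.1 hx
    exact mem_cent_tK.2 (e ▸ (kEl i).1.2)
  · obtain ⟨i, e⟩ := mem_QK.1 hq
    rcases hcases (kEl i) (Subgroup.mem_center_iff.2 fun g => by
      obtain ⟨j, rfl⟩ := kEl_bijective.2 g
      have := congrArg Subtype.val
        (hqc ⟨(kEl j).1.1, levelGrp_le 1 (kEl j).1.2⟩ (mem_QK.2 ⟨j, rfl⟩))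
      refine kEl_ext ?_
      show (kEl j).1.1 * (kEl i).1.1 = (kEl i).1.1 * (kEl j).1.1
      rw [← e]
      exact this.symm) with r | r
    · exact Or.inl (Subtype.ext (e.trans (by rw [r]; rfl)))
    · exact Or.inr (Subtype.ext (e.trans (by rw [r]; rfl)))
  · obtain ⟨i, ei⟩ := mem_QK.1 hp
    obtain ⟨j, ej⟩ := mem_QK.1 hq
    have hv : (p * q * p⁻¹ * q⁻¹ : ↥K).1 = (⁅kEl i, kEl j⁆ : ↥five.ker).1.1 := by
      show p.1 * q.1 * p.1⁻¹ * q.1⁻¹ = _
      rw [ei, ej]; rfl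
    rcases hcases _ (PGroup.special_commutatorElement_mem hE.1 (kEl i) (kEl j)) with r | r
    · exact Or.inl (Subtype.ext (hv.trans (by rw [r]; rfl)))
    · exact Or.inr (Subtype.ext (hv.trans (by rw [r]; rfl)))
  · let k : ↥(Subgroup.centralizer {tK}) →* ↥(levelGrp 1) :=
      (K.subtype.comp (Subgroup.subtype _)).codRestrict _ fun c => mem_cent_tK.1 c.2
    have hk : Function.Surjective k := fun g =>
      ⟨⟨⟨g.1, levelGrp_le 1 g.2⟩, mem_cent_tK.2 g.2⟩, rfl⟩
    refine ⟨five.comp k, ?_, fun c => ?_⟩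
    · rw [MonoidHom.range_comp, MonoidHom.range_eq_top.2 hk, ← MonoidHom.range_eq_map, five_range]
    · rw [mem_QK]
      constructor
      · intro h
        obtain ⟨i, hi⟩ := kEl_bijective.2 ⟨k c, h⟩
        exact ⟨i, by rw [hi]; rfl⟩
      · rintro ⟨i, e⟩
        have : k c = (kEl i).1 := Subtype.ext e
        show five (k c) = 1
        rw [this]
        exact (kEl i).2
  · have h9 : (9 : ℕ) ∈ sL 1 := List.contains_iff_mem.1 t3
    have h9' : el 9 ∈ levelGrp 1 := el_mem_level h9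
    have hw : ∀ k ∈ ([9] : List ℕ), k < 32 := by simp
    refine ⟨⟨el 9, el_mem 9⟩, ⟨(kEl 1).1.1, levelGrp_le 1 (kEl 1).1.2⟩,
      Subgroup.mem_centralizer_singleton_iff.1 (mem_cent_tK.2 h9'), mem_QK.2 ⟨1, rfl⟩,
      fun r => ?_, fun r => ?_⟩
    · have r' : el 9 * (kEl 1).1.1 = (kEl 1).1.1 * el 9 :=
        mul_inv_eq_iff_eq_mul.1 (congrArg Subtype.val r)
      rw [kEl_val, show el 9 = elW [9] by simp [elW], ← elW_append, ← elW_append,
        ← agree_iff (append_lt hw (kWord_lt 1)) (append_lt (kWord_lt 1) hw), t4] at r'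
      exact Bool.noConfusion r'
    · have r' : el 9 * (kEl 1).1.1 = (kEl 1).1.1 * (kEl 13).1.1 * el 9 :=
        mul_inv_eq_iff_eq_mul.1 (congrArg Subtype.val r)
      rw [kEl_val, kEl_val, show el 9 = elW [9] by simp [elW], ← elW_append, ← elW_append,
        ← elW_append,
        ← agree_iff (append_lt hw (kWord_lt 1)) (append_lt (append_lt (kWord_lt 1) (kWord_lt 13)) hw),
        t5] at r'
      exact Bool.noConfusion r'
  · have hw : ∀ k ∈ ([0] : List ℕ), k < 32 := by simp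
    have e1 : elW [0] * (kEl 13).1.1 = (kEl 18).1.1 * elW [0] := by
      rw [kEl_val, kEl_val, ← elW_append, ← elW_append,
        ← agree_iff (append_lt hw (kWord_lt 13)) (append_lt (kWord_lt 18) hw), t1]
    have e2 : elW [0] * (kEl 13).1.1 * (elW [0])⁻¹ = (kEl 18).1.1 := mul_inv_eq_iff_eq_mul.2 e1
    refine ⟨⟨elW [0], elW_mem _⟩, mem_QK.2 ⟨18, e2⟩, fun r => ?_⟩
    have r' : (kEl 18).1.1 = (kEl 13).1.1 := e2.symm.trans (congrArg Subtype.val r)
    rw [kEl_val, kEl_val, ← agree_iff (kWord_lt 18) (kWord_lt 13), t2] at r'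
    exact Bool.noConfusion r'

theorem fusion_simple {G : Type*} [Group G] [Finite G] (e₀ : G ≃* ↥K) (S : Sylow 2 G) :
    (groupFusionSystem (S : Subgroup G)).IsSimple 2 := by
  have : Fact (Nat.Prime 2) := ⟨Nat.prime_two⟩
  let S' : Subgroup (Equiv.Perm (Fin 315)) :=
    (S : Subgroup G).map (K.subtype.comp e₀.toMonoidHom)
  have hS' : IsPGroup 2 S' := S.2.map _
  obtain ⟨x, hx⟩ := hS'.nonempty_fixed_point_of_prime_not_dvd_card (Fin 315) (by
    rw [Nat.card_fin]; norm_num)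
  obtain ⟨g, hg, rfl⟩ := K_transitive x
  let e : G ≃* ↥K := e₀.trans (MulAut.conj (⟨g, hg⟩ : ↥K)⁻¹)
  refine (extraFive.comap e).isSimple (fun s hs => ?_)
  rw [Subgroup.mem_centralizer_singleton_iff, ← e.injective.eq_iff, map_mul, map_mul,
    e.apply_symm_apply]
  refine Subgroup.mem_centralizer_singleton_iff.1 (mem_cent_tK.2 (mem_level_one (e s).2 ?_))
  have hfix : (e₀ s).1 (g 0) = g 0 := hx ⟨(e₀ s).1, ⟨s, hs, rfl⟩⟩
  show ((⟨g, hg⟩ : ↥K)⁻¹ * e₀ s * (⟨g, hg⟩ : ↥K)⁻¹⁻¹ : ↥K).1 0 = 0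
  rw [inv_inv]
  show g⁻¹ ((e₀ s).1 (g 0)) = 0
  rw [hfix]
  exact g.symm_apply_apply 0

end Cfsg.Agent.Janko2
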