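import Cfsg.Agent.Janko2.Simple
import Cfsg.Agent.PGroup.Extraspecial
import Cfsg.Prelude.Def_Transfer

/-!
The stabiliser of a line: an extension of an extraspecial group of order 32 by the alternating
group of degree 5, acting on five pairs of orthogonal lines.
-/

set_option autoImplicit false

open scoped commutatorElement

namespace Cfsg.Agent.Janko2

/-- the ten lines -/
def tenPts : List ℕ := fivePairs.map Prod.fst ++ fivePairs.map Prod.snd

/-- the pair of a line -/
def pairNo (x : ℕ) : Fin 5 :=
  ⟨(fivePairs.findIdx fun p => Nat.beq p.1 x || Nat.beq p.2 x) % 5, Nat.mod_lt _ (by norm_num)⟩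

/-- the first line of a pair -/
def pairPt (k : Fin 5) : ℕ := (fivePairs.getD k.val (0, 0)).1

theorem pair_facts : ∀ k : Fin 5, pairPt k < 315 ∧ pairPt k ∈ tenPts ∧ pairNo (pairPt k) = k := by
  decide +kernel

/-- the permutation of the five pairs induced by a permutation of the lines -/
def Induces (g : Equiv.Perm (Fin 315)) (σ : Equiv.Perm (Fin 5)) : Prop :=
  ∀ x : Fin 315, x.val ∈ tenPts → (g x).val ∈ tenPts ∧ pairNo (g x).val = σ (pairNo x.val)

theorem five_table : ∀ a : Fin (sL 1).length, ∃ σ : Equiv.Perm (Fin 5), Equiv.Perm.sign σ = 1 ∧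
    (tenPts.all fun x => tenPts.contains (papp ((sL 1).get a) x) &&
      decide (pairNo (papp ((sL 1).get a) x) = σ (pairNo x))) = true := by
  decide +kernel

theorem exists_induced {g : Equiv.Perm (Fin 315)} (hg : g ∈ levelGrp 1) :
    ∃ σ ∈ alternatingGroup (Fin 5), Induces g σ := by
  rw [levelGrp, ← Subgroup.mem_toSubmonoid, Subgroup.closure_toSubmonoid_of_finite] at hg
  induction hg using Submonoid.closure_induction_left with
  | one => exact ⟨1, one_mem _, fun x hx => ⟨hx, rfl⟩⟩
  | mul_left a ha z _ ih =>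
    obtain ⟨i, rfl⟩ := ha
    obtain ⟨σ, hσ, h⟩ := ih
    obtain ⟨τ, hτ, hall⟩ := five_table i
    refine ⟨τ * σ, mul_mem (Equiv.Perm.mem_alternatingGroup.2 hτ) hσ, fun x hx => ?_⟩
    obtain ⟨h1, h2⟩ := h x hx
    have h3 := List.all_eq_true.1 hall _ h1
    simp only [Bool.and_eq_true, decide_eq_true_eq, List.contains_iff_mem] at h3
    rw [Equiv.Perm.mul_apply, sE, el_apply (sL_one_facts _ (List.get_mem _ i)).1,
      Equiv.Perm.mul_apply, ← h2]
    exact h3

theorem induced_unique {g : Equiv.Perm (Fin 315)} {σ τ : Equiv.Perm (Fin 5)} (h : Induces g σ)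
    (h' : Induces g τ) : σ = τ := by
  refine Equiv.ext fun k => ?_
  obtain ⟨hlt, hmem, hk⟩ := pair_facts k
  have a := (h ⟨_, hlt⟩ hmem).2
  have b := (h' ⟨_, hlt⟩ hmem).2
  rw [hk] at a b
  exact a.symm.trans b

/-- the action on the five pairs -/
noncomputable def five : ↥(levelGrp 1) →* Equiv.Perm (Fin 5) :=
  MonoidHom.mk' (fun g => (exists_induced g.2).choose) fun g h => by
    obtain ⟨-, hg⟩ := (exists_induced g.2).choose_spec
    obtain ⟨-, hh⟩ := (exists_induced h.2).choose_spec
    refine induced_unique (exists_induced (g * h).2).choose_spec.2 fun x hx => ?_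
    obtain ⟨h1, h2⟩ := hh x hx
    obtain ⟨h3, h4⟩ := hg _ h1
    exact ⟨h3, h4.trans (by rw [h2]; rfl)⟩

theorem five_spec (g : ↥(levelGrp 1)) :
    five g ∈ alternatingGroup (Fin 5) ∧ Induces g.1 (five g) :=
  (exists_induced g.2).choose_spec

/-- the image of a word on the five pairs -/
def wordImg (w : List ℕ) : List (Fin 5) :=
  (List.finRange 5).map fun k => pairNo (applyW w (pairPt k))

theorem quot_table : (quotWords.map wordImg).Nodup ∧ quotWords.length = 60 ∧
    (quotWords.all fun w => w.all fun k => (sL 1).contains k) = true := by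
  decide +kernel

theorem ker_table : (kerWords.all fun w => w.all fun k => (sL 1).contains k) = true ∧
    kerWords.length = 32 ∧ (kerWords.map fun w => sixPts.map (applyW w)).Nodup ∧
    (kerWords.all fun w => decide (wordImg w = List.finRange 5)) = true := by
  decide +kernel

/-- the element of a word in the stabiliser -/
noncomputable def stEl (w : List ℕ) (h : ∀ k ∈ w, k ∈ sL 1) : ↥(levelGrp 1) :=
  ⟨elW w, elW_mem_level h⟩

theorem stEl_five (w : List ℕ) (h : ∀ k ∈ w, k ∈ sL 1) (k : Fin 5) :
    five (stEl w h) k = pairNo (applyW w (pairPt k)) := by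
  obtain ⟨hlt, hmem, hk⟩ := pair_facts k
  have := ((five_spec (stEl w h)).2 ⟨_, hlt⟩ hmem).2
  rw [hk] at this
  rw [← this]
  exact congrArg pairNo (elW_apply (fun j hj => (sL_one_facts j (h j hj)).1) _)

theorem card_level_one : Nat.card ↥(levelGrp 1) = 1920 := by
  have e0 := (level_step 0).1
  have h : (tL 0).length = 315 := by decide +kernel
  rw [show (0 : Fin 5).val = 0 from rfl, levelGrp_zero, card_K, h] at e0
  simp only [Nat.zero_add] at e0
  omega

theorem five_range : five.range = alternatingGroup (Fin 5) := by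
  have hle : five.range ≤ alternatingGroup (Fin 5) := by
    rintro _ ⟨g, rfl⟩
    exact (five_spec g).1
  refine Subgroup.eq_of_le_of_card_ge hle ?_
  obtain ⟨hnd, hlen, hw⟩ := quot_table
  have hcard : Nat.card ↥(alternatingGroup (Fin 5)) = 60 := by
    rw [Nat.card_eq_fintype_card]; decide +kernel
  rw [hcard]
  have hmem : ∀ w ∈ quotWords, ∀ k ∈ w, k ∈ sL 1 := fun w hw' k hk =>
    List.contains_iff_mem.1 (List.all_eq_true.1 (List.all_eq_true.1 hw w hw') k hk)
  let f : Fin 60 → ↥five.range := fun i =>
    ⟨five (stEl _ (hmem _ (List.get_mem quotWords (i.cast hlen.symm)))), ⟨_, rfl⟩⟩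
  have hf : Function.Injective f := by
    intro i j h
    have h' := congrArg Subtype.val h
    have e : wordImg (quotWords.get (i.cast hlen.symm)) = wordImg (quotWords.get (j.cast hlen.symm)) :=
      List.map_congr_left fun k _ => by
        rw [← stEl_five _ (hmem _ (List.get_mem _ _)), ← stEl_five _ (hmem _ (List.get_mem _ _))]
        exact congrArg (fun s : Equiv.Perm (Fin 5) => s k) h'
    have := hnd.getElem_inj_iff
      (hi := show (i.cast hlen.symm).val < (quotWords.map wordImg).length by simp [hlen])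
      (hj := show (j.cast hlen.symm).val < (quotWords.map wordImg).length by simp [hlen]) |>.1
      (by simpa using e)
    exact Fin.ext this
  simpa using Nat.card_le_card_of_injective f hf

theorem card_five_ker : Nat.card ↥five.ker = 32 := by
  have h := Subgroup.card_mul_index five.ker
  rw [Subgroup.index_ker, five_range, card_level_one] at h
  have hcard : Nat.card ↥(alternatingGroup (Fin 5)) = 60 := by
    rw [Nat.card_eq_fintype_card]; decide +kernel
  rw [hcard] at h
  omega

theorem ker_word_mem {w : List ℕ} (hw : w ∈ kerWords) : ∀ k ∈ w, k ∈ sL 1 := fun k hk =>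
  List.contains_iff_mem.1 (List.all_eq_true.1 (List.all_eq_true.1 ker_table.1 w hw) k hk)

/-- an element of the kernel -/
noncomputable def kEl (i : Fin 32) : ↥five.ker :=
  ⟨stEl _ (ker_word_mem (List.get_mem kerWords (i.cast ker_table.2.1.symm))), by
    refine Equiv.ext fun k => ?_
    have h := List.all_eq_true.1 ker_table.2.2.2 _ (List.get_mem kerWords (i.cast ker_table.2.1.symm))
    rw [decide_eq_true_eq] at h
    rw [stEl_five]
    have := congrArg (fun l : List (Fin 5) => l[k.val]?) h
    simpa [wordImg] using this⟩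

/-- the word of a kernel element -/
def kWord (i : Fin 32) : List ℕ := kerWords.getD i.val []

theorem kEl_val (i : Fin 32) : (kEl i).1.1 = elW (kWord i) := by
  show elW (kerWords.get _) = _
  rw [kWord, List.getD_eq_getElem _ _ (by rw [ker_table.2.1]; exact i.2)]
  rfl

theorem kWord_lt : ∀ i : Fin 32, ∀ k ∈ kWord i, k < 32 := by decide +kernel

theorem kEl_apply (i : Fin 32) (x : Fin 315) : ((kEl i).1.1 x).val = applyW (kWord i) x.val := by
  rw [kEl_val, elW_apply (kWord_lt i)]

theorem kEl_bijective : Function.Bijective kEl := by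
  have hinj : Function.Injective kEl := by
    intro i j h
    have hinjT : ∀ i j : Fin 32, sixPts.map (applyW (kWord i)) = sixPts.map (applyW (kWord j)) → i = j := by
      decide +kernel
    refine hinjT i j (List.map_congr_left fun x hx => ?_)
    have hlt : ∀ y ∈ sixPts, y < 315 := by decide +kernel
    have := congrArg (fun g : ↥five.ker => (g.1.1 ⟨x, hlt x hx⟩).val) h
    simp only [kEl_apply] at this
    exact this
  have : Finite ↥five.ker := Nat.finite_of_card_ne_zero (by rw [card_five_ker]; norm_num)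
  exact (Nat.bijective_iff_injective_and_card _).2 ⟨hinj, by rw [Nat.card_fin, card_five_ker]⟩

/-- agreement of two words on the six points -/
def agree (v w : List ℕ) : Bool := sixPts.all fun p => Nat.beq (applyW v p) (applyW w p)

theorem agree_iff {v w : List ℕ} (hv : ∀ k ∈ v, k < 32) (hw : ∀ k ∈ w, k < 32) :
    agree v w = true ↔ elW v = elW w := by
  constructor
  · intro h
    refine eq_of_six (elW_mem v) (elW_mem w) fun x hx => Fin.ext ?_
    rw [elW_apply hv, elW_apply hw]
    exact Nat.eq_of_beq_eq_true (List.all_eq_true.1 h x.val hx)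
  · intro h
    refine List.all_eq_true.2 fun p hp => ?_
    have hlt : ∀ y ∈ sixPts, y < 315 := by decide +kernel
    rw [Nat.beq_eq, ← elW_apply hv ⟨p, hlt p hp⟩, ← elW_apply hw ⟨p, hlt p hp⟩, h]

theorem ker_center_table : (∀ i : Fin 32, kWord i = [] ↔ i = 0) ∧
    (∀ j : Fin 32, agree (kWord 13 ++ kWord j) (kWord j ++ kWord 13) = true) ∧
    (∀ i : Fin 32, i ≠ 0 → i ≠ 13 →
      ∃ j : Fin 32, agree (kWord i ++ kWord j) (kWord j ++ kWord i) = false) ∧
    (∀ i : Fin 32, agree (kWord i ++ kWord i) [] = true ∨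
      agree (kWord i ++ kWord i) (kWord 13) = true) ∧
    (∀ i j : Fin 32, agree (kWord i ++ kWord j) (kWord j ++ kWord i) = true ∨
      agree (kWord i ++ kWord j) (kWord 13 ++ (kWord j ++ kWord i)) = true) ∧
    agree (kWord 13) [] = false := by
  decide +kernel

theorem append_lt {v w : List ℕ} (hv : ∀ k ∈ v, k < 32) (hw : ∀ k ∈ w, k < 32) :
    ∀ k ∈ v ++ w, k < 32 := fun k hk => (List.mem_append.1 hk).elim (hv k) (hw k)

theorem elW_nil : elW [] = 1 := rfl

theorem kEl_zero : kEl 0 = 1 := by
  refine Subtype.ext (Subtype.ext ?_)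
  rw [kEl_val, (ker_center_table.1 0).2 rfl]
  rfl

theorem kEl_ext {a b : ↥five.ker} (h : a.1.1 = b.1.1) : a = b := Subtype.ext (Subtype.ext h)

theorem agree_mul {i j : Fin 32} {w : List ℕ} (hw : ∀ k ∈ w, k < 32)
    (h : agree (kWord i ++ kWord j) w = true) : (kEl i).1.1 * (kEl j).1.1 = elW w := by
  rw [kEl_val, kEl_val, ← elW_append, (agree_iff (append_lt (kWord_lt i) (kWord_lt j)) hw).1 h]

theorem center_five_ker : (Subgroup.center ↥five.ker : Set ↥five.ker) = {1, kEl 13} := by
  obtain ⟨-, h13, hne, -⟩ := ker_center_table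
  ext z
  simp only [SetLike.mem_coe, Set.mem_insert_iff, Set.mem_singleton_iff]
  constructor
  · intro hz
    obtain ⟨i, rfl⟩ := kEl_bijective.2 z
    by_cases h0 : i = 0
    · exact Or.inl (by rw [h0, kEl_zero])
    by_cases h1 : i = 13
    · exact Or.inr (by rw [h1])
    obtain ⟨j, hj⟩ := hne i h0 h1
    have hc : kEl j * kEl i = kEl i * kEl j := Subgroup.mem_center_iff.1 hz (kEl j)
    have e : (kEl j).1.1 * (kEl i).1.1 = (kEl i).1.1 * (kEl j).1.1 :=
      congrArg (fun g : ↥five.ker => g.1.1) hc
    rw [kEl_val, kEl_val, ← elW_append, ← elW_append,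
      ← agree_iff (append_lt (kWord_lt j) (kWord_lt i)) (append_lt (kWord_lt i) (kWord_lt j))] at e
    have : agree (kWord i ++ kWord j) (kWord j ++ kWord i) = true := by
      rw [agree_iff (append_lt (kWord_lt i) (kWord_lt j)) (append_lt (kWord_lt j) (kWord_lt i))]
      exact ((agree_iff (append_lt (kWord_lt j) (kWord_lt i))
        (append_lt (kWord_lt i) (kWord_lt j))).1 e).symm
    rw [hj] at this
    exact Bool.noConfusion this
  · rintro (rfl | rfl)
    · exact one_mem _
    · refine Subgroup.mem_center_iff.2 fun g => ?_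
      obtain ⟨j, rfl⟩ := kEl_bijective.2 g
      refine kEl_ext ?_
      show (kEl j).1.1 * (kEl 13).1.1 = (kEl 13).1.1 * (kEl j).1.1
      rw [agree_mul (append_lt (kWord_lt j) (kWord_lt 13)) (h13 j), elW_append, kEl_val, kEl_val]

theorem extraspecial_five_ker : Cfsg.IsExtraspecial 2 ↥five.ker := by
  have hfin : Finite ↥five.ker := Nat.finite_of_card_ne_zero (by rw [card_five_ker]; norm_num)
  have : Fact (Nat.Prime 2) := ⟨Nat.prime_two⟩
  have hne : kEl 13 ≠ 1 := by
    intro h
    have h1 : (kEl 13).1.1 = 1 := congrArg (fun g : ↥five.ker => g.1.1) h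
    rw [kEl_val, ← elW_nil, ← agree_iff (kWord_lt 13) (by simp)] at h1
    rw [ker_center_table.2.2.2.2.2] at h1
    exact Bool.noConfusion h1
  have hp : IsPGroup 2 ↥five.ker := IsPGroup.of_card (n := 5) (by rw [card_five_ker]; norm_num)
  have hcz : ∀ {x : ↥five.ker}, x = 1 ∨ x = kEl 13 → x ∈ Subgroup.center ↥five.ker := fun {x} h => by
    rw [← SetLike.mem_coe, center_five_ker]; exact h
  have hcomm : commutator ↥five.ker ≤ Subgroup.center ↥five.ker := by
    rw [commutator_def, Subgroup.commutator_le]
    rintro a - b -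
    obtain ⟨i, rfl⟩ := kEl_bijective.2 a
    obtain ⟨j, rfl⟩ := kEl_bijective.2 b
    apply hcz
    rcases ker_center_table.2.2.2.2.1 i j with h | h
    · left
      rw [commutatorElement_eq_one_iff_mul_comm]
      refine kEl_ext ?_
      show (kEl i).1.1 * (kEl j).1.1 = (kEl j).1.1 * (kEl i).1.1
      rw [agree_mul (append_lt (kWord_lt j) (kWord_lt i)) h, elW_append, kEl_val, kEl_val]
    · right
      have e : kEl i * kEl j = kEl 13 * (kEl j * kEl i) := by
        refine kEl_ext ?_
        show (kEl i).1.1 * (kEl j).1.1 = (kEl 13).1.1 * ((kEl j).1.1 * (kEl i).1.1)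
        rw [agree_mul (append_lt (kWord_lt 13) (append_lt (kWord_lt j) (kWord_lt i))) h, elW_append,
          elW_append, kEl_val, kEl_val, kEl_val]
      rw [commutatorElement_def, mul_assoc, mul_assoc, ← mul_assoc (kEl i), e]
      group
  have hsq : ∀ x : ↥five.ker, x ^ 2 ∈ Subgroup.center ↥five.ker := by
    intro x
    obtain ⟨i, rfl⟩ := kEl_bijective.2 x
    apply hcz
    rw [pow_two]
    rcases ker_center_table.2.2.2.1 i with h | h
    · exact Or.inl (kEl_ext (agree_mul (by simp) h))
    · exact Or.inr (kEl_ext ((agree_mul (kWord_lt 13) h).trans (kEl_val 13).symm))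
  have hcard : Nat.card (Subgroup.center ↥five.ker) = 2 := by
    show Nat.card ((Subgroup.center ↥five.ker : Set ↥five.ker) : Type _) = 2
    rw [Nat.card_coe_set_eq, center_five_ker, Set.ncard_pair hne.symm]
  have hna : ¬ IsMulCommutative ↥five.ker := by
    intro hc
    obtain ⟨j, hj⟩ := ker_center_table.2.2.1 1 (by decide) (by decide)
    have e : (kEl 1).1.1 * (kEl j).1.1 = (kEl j).1.1 * (kEl 1).1.1 :=
      congrArg (fun g : ↥five.ker => g.1.1) (hc.is_comm.comm (kEl 1) (kEl j))
    rw [kEl_val, kEl_val, ← elW_append, ← elW_append,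
      ← agree_iff (append_lt (kWord_lt 1) (kWord_lt j)) (append_lt (kWord_lt j) (kWord_lt 1)), hj] at e
    exact Bool.noConfusion e
  exact PGroup.isExtraspecial_of_center hp hcard hna hcomm hsq

end Cfsg.Agent.Janko2
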